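import Cfsg.Agent.H140.TL.Frame3

/-!
# Box C of `Ω_(2n+1)(q)`, `q` odd, `n` even: good frames (helper140)

From a maximal totally singular `W` with `g w ∈ W` for some `w ≠ 0` in `W` and a plane of `W` without nonzero vectors
mapped to `W`: a maximal frame with Schur complement `1`, corner `A` of determinant `r * r`, and a vector `u = ∑ c i w i`
of `W` with `A c` no multiple of `c` and `g u` without middle component.
-/

set_option autoImplicit false
set_option linter.unusedSectionVars false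
set_option linter.unusedSimpArgs false

namespace Cfsg.Agent.H140.TW

open Module QuadraticMap Matrix Cfsg.Agent.LieClassical.OrthCore Cfsg.Agent.LieClassical.OrthTrans
  Cfsg.Agent.LieClassical.OrthFinite
open Cfsg.Agent.H140.OreO Cfsg.Agent.H141.SpinFacts
open Cfsg.Agent.H434.Corn (MaxTS exists_functional exists_moved exists_adapted mids exists_partner_of_datum
  isSquare_corner mem_E_O Partner sum_repr_coe Datum)

variable {F V : Type*} [Field F] [AddCommGroup V] [Module F V] {Q : QuadraticForm F V}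

/-- The frame of a partner, with its vectors. -/
theorem exists_frame' [FiniteDimensional F V] {g : V ≃ₗ[F] V} {W W' : Submodule F V} {A : W →ₗ[F] W}
    (P : Partner Q g W W' A) {m : ℕ} (hm : finrank F W = m) :
    ∃ (w w' : Fin m → V) (b : Basis (Fin m) F W), (∀ i, w i = b i) ∧
      (∀ v, (∀ i, polar Q (w i) v = 0 ∧ polar Q (w' i) v = 0) → v ∈ mids Q W W') ∧
      Frame Q w w' ∧ SchurOne Q g w w' ∧ corner Q g w w' = LinearMap.toMatrix b b A := by
  classical
  subst hm
  let b := Module.finBasis F W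
  let b' : Basis (Fin (finrank F W)) F W' := b.dualBasis.map P.dp.symm.equiv.symm
  have hb' : ∀ (i : Fin (finrank F W)) (w : W), polar Q (b' i : V) (w : V) = b.coord i w := by
    intro i w
    have h1 : b' i = P.dp.symm.equiv.symm (b.dualBasis i) := Basis.map_apply _ _ _
    rw [h1, P.dp.symm.equiv_symm, Basis.coe_dualBasis]
  have hbb : ∀ i (w : W), polar Q (w : V) (b' i : V) = b.coord i w := by
    intro i w
    rw [polar_comm, hb']
  have hmid : ∀ v, (∀ i, polar Q (b i : V) v = 0 ∧ polar Q (b' i : V) v = 0) → v ∈ mids Q W W' := by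
    intro v hv
    refine ⟨?_, ?_⟩
    · intro w hw
      have h2 : w = ∑ i, b.repr ⟨w, hw⟩ i • (b i : V) := (sum_repr_coe b hw).symm
      rw [h2, ← polarBilin_apply_apply, map_sum, LinearMap.sum_apply]
      refine Finset.sum_eq_zero (fun i _ => ?_)
      rw [map_smul, LinearMap.smul_apply, polarBilin_apply_apply, (hv i).1, smul_zero]
    · intro w hw
      have h2 : w = ∑ i, b'.repr ⟨w, hw⟩ i • (b' i : V) := (sum_repr_coe b' hw).symm
      rw [h2, ← polarBilin_apply_apply, map_sum, LinearMap.sum_apply]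
      refine Finset.sum_eq_zero (fun i _ => ?_)
      rw [map_smul, LinearMap.smul_apply, polarBilin_apply_apply, (hv i).2, smul_zero]
  refine ⟨fun i => b i, fun i => b' i, b, fun i => rfl, hmid, ?_, ?_, ?_⟩
  · refine ⟨fun i => P.dp.ts _ (b i).2, fun i => P.dp.ts' _ (b' i).2, fun i j => P.dp.ts.pz (b i).2 (b j).2,
      fun i j => P.dp.ts'.pz (b' i).2 (b' j).2, fun i j => ?_⟩
    rw [hbb, Basis.coord_apply, Basis.repr_self, Finsupp.single_apply]
  · intro v hv
    obtain ⟨w, hw, hgw⟩ := P.mid v (hmid v hv)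
    refine ⟨b.repr ⟨w, hw⟩, b'.repr ⟨g (v + w) - v, hgw⟩, ?_⟩
    rw [sum_repr_coe b hw, sum_repr_coe b' hgw]
    abel
  · ext i j
    rw [corner_apply, P.corner (b j) _ (b' i).2, hbb, LinearMap.toMatrix_apply]
    rfl

/-- no middle component -/
theorem mid_zero [FiniteDimensional F V] {g : V ≃ₗ[F] V} {W W' : Submodule F V} {A : W →ₗ[F] W}
    (hW : MaxTS Q W) (hg : g ∈ O Q) (P : Partner Q g W W' A) {u : W}
    (hq : polar Q (A u : V) (g u) = 0) {v : V} (hv : v ∈ mids Q W W') : polar Q (g u) v = 0 := by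
  obtain ⟨n, hn⟩ : ∃ n, n = P.dp.mid (g u) := ⟨_, rfl⟩
  obtain ⟨a, ha⟩ : ∃ a : W, a = P.dp.pr (g u) := ⟨_, rfl⟩
  obtain ⟨b, hb⟩ : ∃ b : W', b = P.dp.symm.pr (g u) := ⟨_, rfl⟩
  have hnm : n ∈ mids Q W W' := by rw [hn]; exact P.dp.mid_mem _
  have hdec : g u = n + a + b := by rw [hn, ha, hb]; exact P.dp.decomp (g u)
  have hQu : Q (g u) = 0 := by rw [mem_O.1 hg]; exact hW.ts _ u.2
  -- `polar a b = 0`
  have h1 : polar Q (a : V) (b : V) = polar Q (A u : V) (b : V) := by
    rw [ha, P.dp.polar_pr _ b.2, P.corner u _ b.2]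
  have h2 : polar Q (A u : V) (b : V) = 0 := by
    rw [hdec, polar_add_right, polar_add_right, hnm.1 _ (A u).2, P.dp.ts.pz (A u).2 a.2] at hq
    simpa using hq
  have hnz : n = 0 := by
    apply P.dp.anis hW hnm
    rw [hdec, Q_add, Q_add, P.dp.ts _ a.2, P.dp.ts' _ b.2, polar_add_left, h1, h2,
      polar_comm Q n, polar_comm Q n, hnm.1 _ a.2, hnm.2 _ b.2] at hQu
    simpa using hQu
  rw [hdec, hnz, zero_add, polar_add_left, hv.1 _ a.2, hv.2 _ b.2, add_zero]

theorem good_adjust {U : Type*} [AddCommGroup U] [Module F U] [FiniteDimensional F U] {A : U →ₗ[F] U}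
    {H : Submodule F U} (hH0 : H ≠ ⊥) {u : U} (hu : u ∉ H) {d : F} (hd : d ≠ 0)
    (hdet : LinearMap.det A = d) :
    ∃ φ : U →ₗ[F] U, (∀ h ∈ H, φ h = 0) ∧ (∀ u, φ u ∈ H.map A) ∧ LinearMap.det (A + φ) = d ∧
      ∀ c : F, (A + φ) u ≠ c • u := by
  classical
  obtain ⟨r₀, hr₀H, hr₀⟩ := Submodule.exists_mem_ne_zero_of_ne_bot hH0
  by_cases hA : ∀ c : F, A u ≠ c • u
  · exact ⟨0, fun _ _ => rfl, fun u => Submodule.zero_mem _, by rw [add_zero, hdet],
      by rwa [add_zero]⟩
  · push Not at hA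
    obtain ⟨c, hc⟩ := hA
    obtain ⟨ψ, hψ, hψ1⟩ := exists_functional hu
    have e : A + ψ.smulRight (A r₀) = A ∘ₗ LinearMap.transvection ψ r₀ := by
      ext u
      simp [LinearMap.transvection.apply]
    have hinj : Function.Injective A := by
      have h1 : IsUnit A := (LinearMap.isUnit_iff_isUnit_det A).2 (by rw [hdet]; exact hd.isUnit)
      exact ((Module.End.isUnit_iff A).1 h1).1
    have hu0 : u ≠ 0 := by
      rintro rfl
      exact hu H.zero_mem
    have hc0 : c ≠ 0 := by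
      rintro rfl
      rw [zero_smul] at hc
      exact hu0 (hinj (by rw [hc, map_zero]))
    refine ⟨ψ.smulRight (A r₀), fun h hh => ?_, fun u => ?_, ?_, fun d hd => ?_⟩
    · rw [LinearMap.smulRight_apply, hψ h hh, zero_smul]
    · rw [LinearMap.smulRight_apply]
      exact Submodule.smul_mem _ _ ⟨r₀, hr₀H, rfl⟩
    · rw [e, LinearMap.det_comp, LinearMap.transvection.det, hdet, hψ r₀ hr₀H]
      ring
    · rw [LinearMap.add_apply, LinearMap.smulRight_apply, hψ1, one_smul, hc] at hd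
      have h1 : A r₀ = (d - c) • u := by
        rw [sub_smul, ← hd]; abel
      have h2 : A (c • r₀) = A ((d - c) • u) := by
        rw [map_smul, map_smul, h1, hc, smul_comm]
      have h3 := hinj h2
      have h4 : (d - c) • u ∈ H := by
        rw [← h3]; exact H.smul_mem _ hr₀H
      have h5 : d - c = 0 := by
        by_contra hne
        exact hu ((H.smul_mem_iff hne).1 h4)
      rw [h5, zero_smul] at h3
      exact hr₀ ((smul_eq_zero.1 h3).resolve_left hc0)

/-- **Good frames.** -/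
theorem goodFrame [Finite F] [FiniteDimensional F V] (hQ : Nondeg Q) {g : V ≃ₗ[F] V}
    (hg : g ∈ ⁅O Q, O Q⁆) {m : ℕ} (hV : finrank F V = 2 * m + 1) {W : Submodule F V}
    (hW : MaxTS Q W) (hWm : finrank F W = m) (h1 : ∃ w ∈ W, w ≠ 0 ∧ g w ∈ W)
    (h2 : ∃ x ∈ W, ∃ y ∈ W, ∀ a b : F, g (a • x + b • y) ∈ W → a = 0 ∧ b = 0) {r : F}
    (hr : r ≠ 0) :
    ∃ w w' : Fin m → V, Frame Q w w' ∧ SchurOne Q g w w' ∧ (corner Q g w w').det = r * r ∧
      ∃ c : Fin m → F, (∀ d : F, corner Q g w w' *ᵥ c ≠ d • c) ∧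
        ∀ v, (∀ i, polar Q (w i) v = 0 ∧ polar Q (w' i) v = 0) →
          polar Q (g (∑ i, c i • w i)) v = 0 := by
  classical
  have hgO : g ∈ O Q := mem_E_O hg
  obtain ⟨w₁, hw₁, hw₁0, hw₁'⟩ := h1
  obtain ⟨x, hx, y, hy, hxy⟩ := h2
  obtain ⟨W', H, W₁, h, hHW, hmem⟩ := exists_adapted hQ hgO hW
  have heven := h.even_finrank hQ hHW hg
  have hx' : g x ∉ W := by
    intro hcon
    have := hxy 1 0 (by simpa using hcon)
    exact one_ne_zero this.1
  -- `W₁ ≠ 0`
  have hW₁ne : ∃ w ∈ W₁, w ≠ 0 := by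
    obtain ⟨a, ha, b, hb, hab⟩ := h.split hx
    refine ⟨b, hb, ?_⟩
    rintro rfl
    rw [add_zero] at hab
    rw [hab] at hx'
    exact hx' (h.gH a ha)
  have hd : 1 ≤ finrank F W₁ := by
    obtain ⟨w, hw, hw0⟩ := hW₁ne
    rw [Nat.one_le_iff_ne_zero, Ne, Submodule.finrank_eq_zero]
    intro h0
    rw [h0, Submodule.mem_bot] at hw
    exact hw0 hw
  -- the middle space has dimension `1`
  have hM1 : finrank F (mids Q W W') = 1 := by
    have h3 := h.dp.finrank_V
    omega
  have he : finrank F (LinearMap.range h.dlt) ≤ 1 := by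
    have h3 := LinearMap.finrank_range_le h.dlt
    omega
  obtain ⟨l, hl⟩ : ∃ l, finrank F W₁ = finrank F (LinearMap.range h.dlt) + (l + l) := by
    rw [Nat.even_iff] at heven
    refine ⟨(finrank F W₁ - finrank F (LinearMap.range h.dlt)) / 2, ?_⟩
    omega
  obtain ⟨A, t, D, hA⟩ := h.exists_datum hl
  obtain ⟨W'', P⟩ := exists_partner_of_datum h D
  obtain ⟨w, w', b, hf, hS, hc⟩ := P.exists_frame hWm
  have hsq := isSquare_corner hQ hf hg hS
  rw [hc, LinearMap.det_toMatrix] at hsq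
  obtain ⟨s, hs'⟩ := hsq
  have hdetA : LinearMap.det A ≠ 0 := by
    have h1 : IsUnit (LinearMap.det A) := by
      rw [← LinearMap.isUnit_iff_isUnit_det, Module.End.isUnit_iff]
      exact ⟨hA, LinearMap.injective_iff_surjective.1 hA⟩
    exact h1.ne_zero
  have hs0 : s ≠ 0 := by
    rintro rfl
    rw [mul_zero] at hs'
    exact hdetA hs'
  obtain ⟨A', t', D', hA'⟩ := h.exists_scale hW₁ne D (mul_ne_zero hr (inv_ne_zero hs0))
  have hdet' : LinearMap.det A' = r * r := by
    rw [hA', hs']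
    field_simp
  -- the vector `u`
  let fp : (Fin 2 → F) →ₗ[F] W := LinearMap.codRestrict W
    ((LinearMap.proj 0).smulRight x + (LinearMap.proj 1).smulRight y)
    (fun c => W.add_mem (W.smul_mem _ hx) (W.smul_mem _ hy))
  have hfp : ∀ c, ((fp c : W) : V) = c 0 • x + c 1 • y := fun c => rfl
  let ft : (Fin 2 → F) →ₗ[F] mids Q W W' := LinearMap.codRestrict _ (t' ∘ₗ fp)
    (fun c => D'.tM _)
  have hker : LinearMap.ker ft ≠ ⊥ := by
    apply LinearMap.ker_ne_bot_of_finrank_lt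
    rw [Module.finrank_fin_fun, hM1]
    omega
  obtain ⟨c, hck, hc0⟩ := Submodule.exists_mem_ne_zero_of_ne_bot hker
  have htu : t' (fp c) = 0 := congrArg Subtype.val (LinearMap.mem_ker.1 hck)
  have hgu : g (fp c) ∉ W := by
    intro hcon
    rw [hfp] at hcon
    obtain ⟨h3, h4⟩ := hxy _ _ hcon
    apply hc0
    ext i
    fin_cases i
    · exact h3
    · exact h4
  have huH : fp c ∉ H.comap W.subtype := fun hcon => hgu (h.gH _ hcon)
  -- adjust
  have hH0 : H.comap W.subtype ≠ ⊥ := by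
    intro h0
    have h1 : (⟨w₁, hw₁⟩ : W) ∈ H.comap W.subtype := h.mem_H hw₁ hw₁'
    rw [h0, Submodule.mem_bot] at h1
    exact hw₁0 (congrArg Subtype.val h1)
  obtain ⟨φ, hφ1, hφ2, hφ3, hφ4⟩ := good_adjust hH0 huH (mul_ne_zero hr hr) hdet'
  have D'' := D'.add h.dp.ts hgO (φ := φ) (fun w hw => hφ1 w (h.mem_H w.2 hw)) (fun w => by
    obtain ⟨x, hx, hxe⟩ := hφ2 w
    rw [← hxe, D'.fixA x (h.gH _ hx)]
    exact ⟨x, x.2, rfl⟩)
  obtain ⟨W''', P'⟩ := exists_partner_of_datum h D''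
  obtain ⟨w, w', b, hwb, hmid, hf, hS, hc⟩ := exists_frame' P' hWm
  refine ⟨w, w', hf, hS, ?_, b.repr (fp c), fun d hdd => hφ4 d ?_, fun v hv => ?_⟩
  · rw [hc, LinearMap.det_toMatrix, hφ3]
  · rw [hc, LinearMap.toMatrix_mulVec_repr] at hdd
    apply b.repr.injective
    ext i
    rw [map_smul, Finsupp.smul_apply]
    exact congrFun hdd i
  · have h3 : ∑ i, b.repr (fp c) i • w i = (fp c : V) := by
      simp only [hwb]
      exact sum_repr_coe b (fp c).2
    rw [h3]
    refine mid_zero hW hgO P' ?_ (hmid v hv)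
    rw [D''.quad, htu, QuadraticMap.map_zero, neg_zero]

end Cfsg.Agent.H140.TW
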