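import Cfsg.Agent.H140.OreO.PolyB

/-!
# The characteristic polynomial of `-B⁻¹` (helper140)

* `charpoly_neg_inv` : `charpoly (-B⁻¹)` is a unit times `(charpoly B).reverse (-X)`.
* `irr_neg_inv`, `cop_neg_inv` : irreducible and prime to its reciprocal, if `charpoly B` is.
-/

set_option autoImplicit false

namespace Cfsg.Agent.H140.TW

open Polynomial Matrix Cfsg.Agent.H140.OreO

variable {F : Type*} [Field F]

/-- the automorphism `f ↦ f (-X)` -/
noncomputable def nx (F : Type*) [Field F] : F[X] ≃+* F[X] := (algEquivAevalNegX (R := F)).toRingEquiv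

theorem nx_apply (p : F[X]) : nx F p = p.comp (-X) := by
  show aeval (-X : F[X]) p = _
  rw [Polynomial.comp, Polynomial.aeval_def]
  rfl

theorem comp_neg_X_eq_sum (p : F[X]) (i : ℕ) : (p.comp (-X)).coeff i = (-1) ^ i * p.coeff i := by
  induction p using Polynomial.induction_on' with
  | add p q hp hq => rw [add_comp, coeff_add, coeff_add, hp, hq, mul_add]
  | monomial n a =>
    rw [monomial_comp, neg_pow, ← C_1, ← C_neg, ← C_pow, mul_left_comm, coeff_C_mul, coeff_C_mul_X_pow,
      coeff_monomial]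
    split_ifs with h h' h'
    · rw [h]
    · exact absurd h.symm h'
    · exact absurd h'.symm h
    · rw [mul_zero, mul_zero]

theorem natDegree_comp_neg (p : F[X]) : (p.comp (-X)).natDegree = p.natDegree := by
  have h : (-X : F[X]).natDegree = 1 := by rw [natDegree_neg, natDegree_X]
  rw [natDegree_comp, h, mul_one]

theorem reverse_comp_neg (p : F[X]) :
    (p.comp (-X)).reverse = C ((-1) ^ p.natDegree) * (p.reverse).comp (-X) := by
  ext i
  rw [coeff_C_mul, comp_neg_X_eq_sum, coeff_reverse, coeff_reverse, natDegree_comp_neg, comp_neg_X_eq_sum]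
  by_cases hi : i ≤ p.natDegree
  · rw [revAt_le hi]
    obtain ⟨k, hk⟩ := Nat.exists_eq_add_of_le hi
    rw [hk, Nat.add_sub_cancel_left, pow_add]
    have h1 : ((-1 : F) ^ i) * (-1) ^ i = 1 := by rw [← mul_pow]; simp
    linear_combination (-((-1 : F) ^ k * p.coeff k)) * h1
  · have h1 : revAt p.natDegree i = i := by
      rw [revAt_eq_self_of_lt (by omega)]
    rw [h1, coeff_eq_zero_of_natDegree_lt (by omega)]
    ring

variable {n : ℕ}

theorem charpoly_neg' (M : Matrix (Fin n) (Fin n) F) :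
    (-M).charpoly = C ((-1) ^ n) * (M.charpoly).comp (-X) := by
  have h1 : (M.charpoly).comp (-X) = (-1) ^ n * (-M).charpoly := by
    have h2 : (M.charpoly).comp (-X) = (compRingHom (-X : F[X])) M.charpoly := rfl
    rw [h2, Matrix.charpoly, RingHom.map_det, Matrix.charpoly]
    have h3 : (compRingHom (-X : F[X])).mapMatrix M.charmatrix = -(-M).charmatrix := by
      ext1 i j
      rw [RingHom.mapMatrix_apply, Matrix.map_apply, Matrix.neg_apply]
      by_cases hij : i = j
      · subst hij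
        rw [charmatrix_apply_eq, charmatrix_apply_eq, coe_compRingHom_apply]
        simp only [sub_comp, X_comp, C_comp, Matrix.neg_apply, map_neg]
        ring
      · rw [charmatrix_apply_ne _ _ _ hij, charmatrix_apply_ne _ _ _ hij, coe_compRingHom_apply]
        simp
    rw [h3, det_neg, Fintype.card_fin]
  rw [h1, C_pow, C_neg, C_1, ← mul_assoc, ← mul_pow]
  simp

/-- **The characteristic polynomial of `-B⁻¹`.** -/
theorem charpoly_neg_inv (B : GL (Fin n) F) : ∃ c : F, c ≠ 0 ∧
    (-((B⁻¹ : GL (Fin n) F) : Matrix (Fin n) (Fin n) F)).charpoly =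
      C c * ((B : Matrix (Fin n) (Fin n) F).charpoly.reverse).comp (-X) := by
  have hB : IsUnit (B : Matrix (Fin n) (Fin n) F) := B.isUnit
  have h1 := Matrix.charpoly_inv (B : Matrix (Fin n) (Fin n) F) hB
  rw [← Matrix.reverse_charpoly, Fintype.card_fin] at h1
  have hd : (B : Matrix (Fin n) (Fin n) F).det ≠ 0 :=
    ((Matrix.isUnit_iff_isUnit_det _).1 hB).ne_zero
  refine ⟨((B : Matrix (Fin n) (Fin n) F).det)⁻¹, inv_ne_zero hd, ?_⟩
  rw [charpoly_neg', Matrix.coe_units_inv, h1, Ring.inverse_eq_inv', mul_comp, mul_comp, C_comp, pow_comp,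
    neg_comp, one_comp, C_pow, C_neg, C_1, mul_assoc ((-1) ^ n), ← mul_assoc ((-1) ^ n), ← mul_pow]
  simp

theorem irr_comp_neg {p : F[X]} (hp : Irreducible p) : Irreducible (p.comp (-X)) := by
  rw [← nx_apply]
  exact (MulEquiv.irreducible_iff (nx F)).2 hp

theorem cop_comp_neg {p q : F[X]} (h : IsCoprime p q) : IsCoprime (p.comp (-X)) (q.comp (-X)) := by
  rw [← nx_apply, ← nx_apply]
  exact h.map (nx F : F[X] →+* F[X])

theorem isUnit_C' {c : F} (hc : c ≠ 0) : IsUnit (C c : F[X]) := isUnit_C.2 hc.isUnit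

/-- `charpoly (-B⁻¹)` is irreducible. -/
theorem irr_neg_inv {B : GL (Fin n) F} (hirr : Irreducible (B : Matrix (Fin n) (Fin n) F).charpoly) :
    Irreducible (-((B⁻¹ : GL (Fin n) F) : Matrix (Fin n) (Fin n) F)).charpoly := by
  obtain ⟨c, hc, e⟩ := charpoly_neg_inv B
  have h0 : (B : Matrix (Fin n) (Fin n) F).charpoly.coeff 0 ≠ 0 := by
    have hd : (B : Matrix (Fin n) (Fin n) F).det ≠ 0 :=
      ((Matrix.isUnit_iff_isUnit_det _).1 B.isUnit).ne_zero
    intro h
    apply hd
    rw [Matrix.det_eq_sign_charpoly_coeff, h, mul_zero]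
  rw [e, irreducible_isUnit_mul (isUnit_C' hc)]
  exact irr_comp_neg (irreducible_rev hirr h0)

/-- `charpoly (-B⁻¹)` is prime to its reciprocal. -/
theorem cop_neg_inv {B : GL (Fin n) F}
    (hcop : IsCoprime (B : Matrix (Fin n) (Fin n) F).charpoly (B : Matrix (Fin n) (Fin n) F).charpoly.reverse) :
    IsCoprime (-((B⁻¹ : GL (Fin n) F) : Matrix (Fin n) (Fin n) F)).charpoly
      (-((B⁻¹ : GL (Fin n) F) : Matrix (Fin n) (Fin n) F)).charpoly.reverse := by
  obtain ⟨c, hc, e⟩ := charpoly_neg_inv B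
  have h0 : (B : Matrix (Fin n) (Fin n) F).charpoly.coeff 0 ≠ 0 := by
    have hd : (B : Matrix (Fin n) (Fin n) F).det ≠ 0 :=
      ((Matrix.isUnit_iff_isUnit_det _).1 B.isUnit).ne_zero
    intro h
    apply hd
    rw [Matrix.det_eq_sign_charpoly_coeff, h, mul_zero]
  have hr : ∀ p : F[X], (C c * p).reverse = C c * p.reverse := by
    intro p
    rw [reverse_mul_of_domain, reverse_C]
  have hu : IsUnit (C ((-1) ^ (B : Matrix (Fin n) (Fin n) F).charpoly.reverse.natDegree) : F[X]) :=
    isUnit_C' (pow_ne_zero _ (neg_ne_zero.2 one_ne_zero))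
  rw [e, hr, reverse_comp_neg, rev_rev h0, isCoprime_mul_unit_left_left (isUnit_C' hc),
    isCoprime_mul_unit_left_right (isUnit_C' hc), isCoprime_mul_unit_left_right hu]
  exact (cop_comp_neg hcop).symm

/-- values at `±1` -/
theorem eval_neg_inv {B : GL (Fin n) F} {a : F} (ha : a * a = 1)
    (h : (B : Matrix (Fin n) (Fin n) F).charpoly.eval (-a) ≠ 0) :
    (-((B⁻¹ : GL (Fin n) F) : Matrix (Fin n) (Fin n) F)).charpoly.eval a ≠ 0 := by
  rw [Matrix.eval_charpoly] at h ⊢
  intro hz
  apply h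
  have hd : (B : Matrix (Fin n) (Fin n) F).det ≠ 0 :=
    ((Matrix.isUnit_iff_isUnit_det _).1 B.isUnit).ne_zero
  have e1 : ((B : Matrix (Fin n) (Fin n) F)) * ((B⁻¹ : GL (Fin n) F) : Matrix (Fin n) (Fin n) F) = 1 := by
    rw [← Units.val_mul, mul_inv_cancel, Units.val_one]
  have e2 : scalar (Fin n) (-a) - (B : Matrix (Fin n) (Fin n) F) =
      (-a) • ((B : Matrix (Fin n) (Fin n) F) *
        (scalar (Fin n) a - -((B⁻¹ : GL (Fin n) F) : Matrix (Fin n) (Fin n) F))) := by
    rw [mul_sub, mul_neg, e1, Matrix.scalar_apply, Matrix.scalar_apply,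
      ← Matrix.smul_one_eq_diagonal, ← Matrix.smul_one_eq_diagonal, Matrix.mul_smul, mul_one, smul_sub,
      smul_smul, smul_neg, neg_mul, ha]
    module
  rw [e2, det_smul, det_mul, hz]
  ring

end Cfsg.Agent.H140.TW
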