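import Cfsg.Agent.H140.TW.R1Core
import Cfsg.Agent.H781.TW.Def

/-!
# Box D1a of `Ω_(2n+1)(q)`, `q` odd, `n` even (helper140)
-/

set_option autoImplicit false

namespace Cfsg.Agent.H140.TW

open Module QuadraticMap Cfsg.Agent.LieClassical.OrthCore Cfsg.Agent.LieClassical.OrthTrans
open Cfsg.Agent.H434.Corn Cfsg.Agent.H781.TW

variable {F V : Type*} [Field F] [AddCommGroup V] [Module F V] {Q : QuadraticForm F V}

theorem R1_sq [FiniteDimensional F V] (h2 : (2 : F) ≠ 0) (hQ : Nondeg Q)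
    (hW : ∃ W, MaxTS Q W ∧ 3 ≤ finrank F W) {g : V ≃ₗ[F] V} (hg : g ∈ O Q) (hR : R1 Q g) :
    ∀ v, g (g v) = v := by
  obtain ⟨W, hW, h3⟩ := hW
  exact RO_sq h2 hQ ⟨W, hW.ts, h3⟩ hg hR

end Cfsg.Agent.H140.TW
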