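import Mathlib
import Cfsg.Agent.H434.CornParity

/-!
# The rank-one condition on isometries (helper140)

`g` an isometry with
`b(g x, x) b(g y, y) = b(g x, y) b(g y, x)` for all singular orthogonal `x, y`:
then `g * g = 1` (odd characteristic, Witt index at least 3).
-/

set_option autoImplicit false

namespace Cfsg.Agent.H140.TW

open Module QuadraticMap Cfsg.Agent.LieClassical.OrthCore Cfsg.Agent.LieClassical.OrthTrans
open Cfsg.Agent.H434.Corn

variable {F V : Type*} [Field F] [AddCommGroup V] [Module F V] {Q : QuadraticForm F V}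

/-- A nonzero singular vector orthogonal to two given vectors. -/
theorem exists_e [FiniteDimensional F V] {W : Submodule F V} (hW : TS Q W)
    (h3 : 3 ≤ finrank F W) (a b : V) :
    ∃ e, e ≠ 0 ∧ Q e = 0 ∧ polar Q a e = 0 ∧ polar Q b e = 0 := by
  let f : W →ₗ[F] (Fin 2 → F) :=
    LinearMap.pi (fun i => (polarBilin Q (![a, b] i)).comp W.subtype)
  have hker : LinearMap.ker f ≠ ⊥ := by
    apply LinearMap.ker_ne_bot_of_finrank_lt
    rw [Module.finrank_fin_fun]
    omega
  obtain ⟨w, hw, hw0⟩ := Submodule.exists_mem_ne_zero_of_ne_bot hker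
  refine ⟨w, fun h => hw0 (Subtype.ext h), hW w w.2, ?_, ?_⟩
  · have := congrFun (LinearMap.mem_ker.1 hw) 0
    simpa [f] using this
  · have := congrFun (LinearMap.mem_ker.1 hw) 1
    simpa [f] using this

/-- A hyperbolic pair orthogonal to a given one. -/
theorem exists_ef [FiniteDimensional F V] (hQ : Nondeg Q)
    (hW : ∃ W : Submodule F V, TS Q W ∧ 3 ≤ finrank F W) {x x' : V} (h : Hyp Q x x') :
    ∃ e f, Hyp Q e f ∧ polar Q x e = 0 ∧ polar Q x f = 0 ∧ polar Q x' e = 0 ∧
      polar Q x' f = 0 := by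
  obtain ⟨W, hW, h3⟩ := hW
  obtain ⟨e, h0, hs, ha, hb⟩ := exists_e hW h3 x x'
  obtain ⟨f, hf, h1, h2⟩ := exists_hyp_perp hQ h hs h0 ha hb
  exact ⟨e, f, hf, ha, h1, hb, h2⟩

/-- A vector orthogonal to the singular vectors of `x^⊥` is a multiple of `x`. -/
theorem mult_of_perp [FiniteDimensional F V] (hQ : Nondeg Q)
    (hW : ∃ W : Submodule F V, TS Q W ∧ 3 ≤ finrank F W) {x s : V} (hx : Q x = 0) (h0 : x ≠ 0)
    (hs : ∀ y, Q y = 0 → polar Q x y = 0 → polar Q s y = 0) : ∃ c : F, s = c • x := by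
  by_contra hcon
  push Not at hcon
  obtain ⟨y, hy1, hy2⟩ := exists_sep hQ hcon
  obtain ⟨x', hx'⟩ := exists_hyp hQ hx h0
  obtain ⟨e, f, hef, h1, h2, -, -⟩ := exists_ef hQ hW hx'
  have := sing_induction_perp (Q := Q) (P := fun a => polar Q s a = 0) hef h1 h2 h1 h2
    (fun a c _ _ _ _ ha hc => by rw [polar_add_right, ha, hc, add_zero])
    (fun a ha hxa _ => hs a ha hxa) y hy1 hy1
  have h3 : polar Q s y = 0 := this
  rw [h3] at hy2
  exact zero_ne_one hy2

theorem five_le [FiniteDimensional F V] (hQ : Nondeg Q)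
    (hW : ∃ W : Submodule F V, TS Q W ∧ 3 ≤ finrank F W) : 5 ≤ finrank F V := by
  obtain ⟨W, hW, h3⟩ := hW
  obtain ⟨W', -, hdp⟩ := exists_partner hQ hW (X := ⊥) (fun x hx => by
    rw [(Submodule.mem_bot F).1 hx, QuadraticMap.map_zero]) (fun x hx _ => (Submodule.mem_bot F).1 hx)
  have h1 := hdp.finrank_V
  omega

/-- The rank-one condition. -/
def RO (Q : QuadraticForm F V) (g : V ≃ₗ[F] V) : Prop :=
  ∀ x y : V, Q x = 0 → Q y = 0 → polar Q x y = 0 →
    polar Q (g x) x * polar Q (g y) y = polar Q (g x) y * polar Q (g y) x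

theorem polar_symm_left {g : V ≃ₗ[F] V} (hg : g ∈ O Q) (x y : V) :
    polar Q (g.symm x) y = polar Q x (g y) := by
  rw [← polar_map hg, LinearEquiv.apply_symm_apply]

theorem step1 [FiniteDimensional F V] (h2 : (2 : F) ≠ 0) (hQ : Nondeg Q)
    (hd : 5 ≤ finrank F V) {g : V ≃ₗ[F] V} (hg : g ∈ O Q) (hR : RO Q g) {x : V} (hx : Q x = 0)
    (h0 : x ≠ 0) (hb : polar Q (g x) x = 0) : ∃ c : F, g x = c • x := by
  by_contra hcon
  push Not at hcon
  have hp : Q (g x) = 0 := by rw [mem_O.1 hg, hx]
  have hxp : polar Q x (g x) = 0 := polar_zero_of_comm hb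
  obtain ⟨w, hw1, hw2⟩ := exists_sep hQ hcon
  obtain ⟨z1, hz⟩ : ∃ z1, z1 = w + (-Q w) • g x := ⟨_, rfl⟩
  have hpz : Hyp Q (g x) z1 := by
    refine ⟨hp, ?_, ?_⟩
    · rw [hz, Q_add, QuadraticMap.map_smul, hp, polar_smul_right, polar_comm Q w, hw2]
      simp
    · rw [hz, polar_add_right, polar_smul_right, polar_self_of_sing hp, hw2]
      simp
  have hxz : polar Q x z1 = 0 := by
    rw [hz, polar_add_right, polar_smul_right, hxp, hw1]
    simp
  obtain ⟨x', hxx, hpx, hzx⟩ := exists_hyp_perp hQ hpz hx h0 hb (polar_zero_of_comm hxz)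
  obtain ⟨a, c, ⟨ha1, ha2, ha3, ha4⟩, ⟨hc1, hc2, hc3, hc4⟩, hac⟩ := exists_perp4 hQ hd hxx hpz
    hxp hxz (polar_zero_of_comm hpx) (polar_zero_of_comm hzx)
  obtain ⟨u, hu1, hu3, hu4, hu0⟩ : ∃ u, polar Q x u = 0 ∧ polar Q (g x) u = 0 ∧
      polar Q z1 u = 0 ∧ Q u ≠ 0 := by
    rcases exists_nonsing hac with h | h | h
    · exact ⟨a, ha1, ha3, ha4, h⟩
    · exact ⟨c, hc1, hc3, hc4, h⟩
    · exact ⟨a + c, by rw [polar_add_right, ha1, hc1, add_zero],
        by rw [polar_add_right, ha3, hc3, add_zero],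
        by rw [polar_add_right, ha4, hc4, add_zero], h⟩
  -- the basic relation
  have key : ∀ v, polar Q x v = 0 → polar Q (g x) v = 0 → polar Q z1 v = 0 →
      polar Q (g.symm x) z1 + polar Q (g.symm x) v - Q v * polar Q (g.symm x) (g x) = 0 := by
    intro v hv1 hv2 hv3
    have hs := sing_vec hpz.symm hv3 hv2
    have hxs : polar Q x (z1 + v - Q v • g x) = 0 := by
      simp only [polar_sub_right, polar_add_right, polar_smul_right, hxz, hv1, hxp]
      simp
    have h1 := hR x _ hx hs hxs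
    rw [hb, zero_mul] at h1
    have h3 : polar Q (g x) (z1 + v - Q v • g x) = 1 := by
      simp only [polar_sub_right, polar_add_right, polar_smul_right, hpz.pair, hv2,
        polar_self_of_sing hp]
      simp
    rw [h3, one_mul] at h1
    rw [polar_comm, ← polar_symm_left hg] at h1
    simp only [polar_sub_right, polar_add_right, polar_smul_right, smul_eq_mul] at h1
    exact h1.symm
  have k0 : polar Q (g.symm x) z1 = 0 := by
    have := key 0 (polar_zero_right _ _) (polar_zero_right _ _) (polar_zero_right _ _)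
    simpa using this
  have k1 := key u hu1 hu3 hu4
  have k2 := key (-u) (by rw [polar_neg_right, hu1, neg_zero])
    (by rw [polar_neg_right, hu3, neg_zero]) (by rw [polar_neg_right, hu4, neg_zero])
  rw [polar_neg_right, QuadraticMap.map_neg] at k2
  have k3 : polar Q (g.symm x) (g x) = 0 := by
    have h4 : 2 * (Q u * polar Q (g.symm x) (g x)) = 0 := by
      linear_combination 2 * k0 - k1 - k2
    rcases mul_eq_zero.1 h4 with h | h
    · exact absurd h h2
    · rcases mul_eq_zero.1 h with h | h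
      · exact absurd h hu0
      · exact h
  have k4 : ∀ v, polar Q x v = 0 → polar Q (g x) v = 0 → polar Q z1 v = 0 →
      polar Q (g.symm x) v = 0 := by
    intro v hv1 hv2 hv3
    have := key v hv1 hv2 hv3
    rw [k0, k3] at this
    simpa using this
  have k5 : polar Q (g.symm x) x = 0 := by
    rw [polar_symm_left hg]; exact hxp
  -- `g⁻¹ x` is a multiple of `x`
  have hmul : ∃ c : F, g.symm x = c • x := by
    by_contra hcon'
    push Not at hcon'
    obtain ⟨y, hy1, hy2⟩ := exists_sep hQ hcon'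
    have e1 : polar Q (g.symm x) (Cfsg.Agent.LieClassical.OrthTrans.proj Q (g x) z1 (Cfsg.Agent.LieClassical.OrthTrans.proj Q x x' y)) = 0 := by
      apply k4
      · rw [polar_proj_of_perp hb (polar_zero_of_comm hxz), polar_proj_left hxx]
      · exact polar_proj_left hpz _
      · exact polar_proj_right hpz _
    simp only [Cfsg.Agent.LieClassical.OrthTrans.proj, polar_sub_right, polar_smul_right, k0, k3, k5, hy1, hy2] at e1
    simp at e1
  obtain ⟨c, hc⟩ := hmul
  have e2 : x = c • g x := by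
    have := congrArg g hc
    rwa [LinearEquiv.apply_symm_apply, map_smul] at this
  have hc0 : c ≠ 0 := by
    rintro rfl
    exact h0 (by rw [e2, zero_smul])
  apply hcon c⁻¹
  nth_rewrite 2 [e2]
  rw [smul_smul, inv_mul_cancel₀ hc0, one_smul]

theorem step2 [FiniteDimensional F V] (h2 : (2 : F) ≠ 0) (hQ : Nondeg Q)
    (hd : 5 ≤ finrank F V) {g : V ≃ₗ[F] V} (hg : g ∈ O Q) (hR : RO Q g) {x y : V} (hx : Q x = 0)
    (hy : Q y = 0) (hxy : polar Q x y = 0) : polar Q (g x) y = polar Q (g y) x := by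
  by_cases h0 : x = 0
  · rw [h0, map_zero, polar_zero_left, polar_zero_right]
  by_cases hb : polar Q (g x) x = 0
  · obtain ⟨c, hc⟩ := step1 h2 hQ hd hg hR hx h0 hb
    have hc0 : c ≠ 0 := by
      rintro rfl
      rw [zero_smul] at hc
      exact h0 (g.map_eq_zero_iff.1 hc)
    have h3 : polar Q (g x) y = 0 := by
      rw [hc, polar_smul_left, hxy, smul_zero]
    have h4 : polar Q (g y) (g x) = 0 := by
      rw [polar_map hg, polar_comm]; exact hxy
    rw [hc, polar_smul_right, smul_eq_mul] at h4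
    rcases mul_eq_zero.1 h4 with h | h
    · exact absurd h hc0
    · rw [h3, h]
  · obtain ⟨t, ht⟩ : ∃ t, t = polar Q (g x) y / polar Q (g x) x := ⟨_, rfl⟩
    have ht' : t * polar Q (g x) x = polar Q (g x) y := by
      rw [ht, div_mul_cancel₀ _ hb]
    have hR' := hR x y hx hy hxy
    have hv : Q (y - t • x) = 0 := by
      rw [sub_eq_add_neg, ← neg_smul, Q_add, QuadraticMap.map_smul, hx, hy, polar_smul_right,
        polar_comm Q y x, hxy]
      simp
    have hvx : polar Q (y - t • x) x = 0 := by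
      rw [polar_sub_left, polar_smul_left, polar_self_of_sing hx, polar_comm Q y x, hxy]
      simp
    have hvv : polar Q (g (y - t • x)) (y - t • x) = 0 := by
      simp only [map_sub, map_smul, polar_sub_left, polar_sub_right, polar_smul_left,
        polar_smul_right, smul_eq_mul]
      apply mul_left_cancel₀ hb
      linear_combination hR' + (-(polar Q (g y) x) + t * polar Q (g x) x ) * ht'
    have hvx' : polar Q (g (y - t • x)) x = 0 := by
      by_cases hv0 : y - t • x = 0
      · rw [hv0, map_zero, polar_zero_left]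
      · obtain ⟨c, hc⟩ := step1 h2 hQ hd hg hR hv hv0 hvv
        rw [hc, polar_smul_left, hvx, smul_zero]
    rw [map_sub, map_smul, polar_sub_left, polar_smul_left, smul_eq_mul] at hvx'
    rw [← ht']
    linear_combination -hvx'

theorem step3 [FiniteDimensional F V] (h2 : (2 : F) ≠ 0) (hQ : Nondeg Q)
    (hW : ∃ W : Submodule F V, TS Q W ∧ 3 ≤ finrank F W)
    {g : V ≃ₗ[F] V} (hg : g ∈ O Q) (hR : RO Q g) {x : V} (hx : Q x = 0) :
    ∃ c : F, g x - g.symm x = c • x := by
  by_cases h0 : x = 0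
  · exact ⟨0, by rw [h0]; simp⟩
  have hd := five_le hQ hW
  refine mult_of_perp hQ hW hx h0 (fun y hy hxy => ?_)
  rw [polar_sub_left, polar_symm_left hg, step2 h2 hQ hd hg hR hx hy hxy, polar_comm Q x (g y),
    sub_self]

theorem step4 [FiniteDimensional F V] (h2 : (2 : F) ≠ 0) (hQ : Nondeg Q)
    (hW : ∃ W : Submodule F V, TS Q W ∧ 3 ≤ finrank F W)
    {g : V ≃ₗ[F] V} (hg : g ∈ O Q) (hR : RO Q g) {x : V} (hx : Q x = 0) :
    g x - g.symm x = 0 := by
  by_cases h0 : x = 0
  · rw [h0]; simp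
  obtain ⟨y, hxy⟩ := exists_hyp hQ hx h0
  obtain ⟨e, f, hef, h11, h12, h21, h22⟩ := exists_ef hQ hW hxy
  -- skewness
  have skew : ∀ a b : V, polar Q (g a - g.symm a) b = - polar Q a (g b - g.symm b) := by
    intro a b
    have h5 : polar Q (g a) b = polar Q a (g.symm b) := by
      rw [polar_comm Q a, polar_symm_left hg, polar_comm]
    rw [polar_sub_left, polar_sub_right, polar_symm_left hg, h5]
    ring
  have opp : ∀ (a b : V) (c d : F), g a - g.symm a = c • a → g b - g.symm b = d • b →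
      polar Q a b ≠ 0 → c = -d := by
    intro a b c d hc hd hab
    have := skew a b
    rw [hc, hd, polar_smul_left, polar_smul_right, smul_eq_mul, smul_eq_mul] at this
    apply mul_right_cancel₀ hab
    linear_combination this
  obtain ⟨c, hc⟩ := step3 h2 hQ hW hg hR hx
  obtain ⟨d, hd⟩ := step3 h2 hQ hW hg hR hxy.right
  have hu : Q (e + f) = 1 := by
    rw [Q_add, hef.left, hef.right, hef.pair]; ring
  have hxu : polar Q x (e + f) = 0 := by rw [polar_add_right, h11, h12, add_zero]
  have hyu : polar Q y (e + f) = 0 := by rw [polar_add_right, h21, h22, add_zero]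
  have hz := sing_vec hxy hxu hyu
  obtain ⟨l, hl⟩ := step3 h2 hQ hW hg hR hz
  have o1 := opp _ _ _ _ hc hd (by rw [hxy.pair]; exact one_ne_zero)
  have o2 := opp _ _ _ _ hc hl (by
    simp only [polar_sub_right, polar_add_right, polar_smul_right, hxy.polar_left, h11, h12,
      hxy.pair, hu]
    simp)
  have o3 := opp _ _ _ _ hd hl (by
    simp only [polar_sub_right, polar_add_right, polar_smul_right, hxy.pair', h21, h22,
      hxy.polar_right, hu]
    simp)
  have hc0 : c = 0 := by
    have : 2 * c = 0 := by linear_combination o1 + o2 - o3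
    rcases mul_eq_zero.1 this with h | h
    · exact absurd h h2
    · exact h
  rw [hc, hc0, zero_smul]

/-- An isometry with the rank-one condition is an involution. -/
theorem RO_sq [FiniteDimensional F V] (h2 : (2 : F) ≠ 0) (hQ : Nondeg Q)
    (hW : ∃ W : Submodule F V, TS Q W ∧ 3 ≤ finrank F W)
    {g : V ≃ₗ[F] V} (hg : g ∈ O Q) (hR : RO Q g) : ∀ v, g (g v) = v := by
  intro v
  obtain ⟨W, hTS, h3⟩ := hW
  obtain ⟨e, he0, he, -, -⟩ := exists_e hTS h3 (0 : V) 0
  obtain ⟨f, hef⟩ := exists_hyp hQ he he0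
  have h := sing_induction hef (P := fun a => g a - g.symm a = 0)
    (fun a c ha hc => by
      have ha' : g a - g.symm a = 0 := ha
      have hc' : g c - g.symm c = 0 := hc
      show g (a + c) - g.symm (a + c) = 0
      rw [map_add, map_add, sub_eq_zero.1 ha', sub_eq_zero.1 hc', sub_self])
    (fun a ha => step4 h2 hQ ⟨W, hTS, h3⟩ hg hR ha) v
  have h' : g v = g.symm v := sub_eq_zero.1 h
  rw [h', LinearEquiv.apply_symm_apply]

end Cfsg.Agent.H140.TW
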